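import Mathlib
import Cfsg.Agent.Lib.Helper33.SL2Nat.Defs

/-!
# S3009, package (M3b): a small irreducible `SL₂(F)`-module is quadratic

If `V` is irreducible, nontrivial and `|V| ≤ |C_V(U⁺)|²`, then `V = C_V(U⁺) × C_V(U⁻)` and the
second fixed-point layer of `U⁺` gives `[V, U⁺] ≤ C_V(U⁺)`.
-/

set_option autoImplicit false

namespace Cfsg.Agent.Lib.Helper87.SL2Nat

open Cfsg.Agent.Lib.Helper48.FrakL Cfsg.Agent.Lib.Helper33.FrakL Cfsg.Agent.Lib.Helper33.SL2Nat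

universe u v

section

variable {F : Type u} [Field F] {V : Type v} [CommGroup V]
  (ρ : Matrix.SpecialLinearGroup (Fin 2) F →* MulAut V)

/-- A point fixed by both root groups is fixed by the whole group. -/
theorem fixed_of_mem_inf87 {v : V} (hx : v ∈ fixX ρ) (hy : v ∈ fixY ρ)
    (g : Matrix.SpecialLinearGroup (Fin 2) F) : ρ g v = v := by
  refine sl2_induction (P := fun g => ρ g v = v) ?_ ?_ ?_ g
  · rw [map_one]
    rfl
  · intro t g hg
    rw [rho_mul, hg]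
    exact hx t
  · intro t g hg
    rw [rho_mul, hg]
    exact hy t

theorem inf_eq_bot87 (hirr : Irr ρ) (hnt : Nontriv ρ) : fixX ρ ⊓ fixY ρ = ⊥ := by
  rcases hirr (fixX ρ ⊓ fixY ρ) (fun g w hw => by
      rw [fixed_of_mem_inf87 ρ hw.1 hw.2 g]
      exact hw) with h | h
  · exact h
  · exfalso
    obtain ⟨g, v, hgv⟩ := hnt
    have hv : v ∈ fixX ρ ⊓ fixY ρ := by
      rw [h]
      exact Subgroup.mem_top v
    exact hgv (fixed_of_mem_inf87 ρ hv.1 hv.2 g)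

/-- A small irreducible module is the product of the two fixed-point groups. -/
theorem exists_decomp87 [Finite V] (hirr : Irr ρ) (hnt : Nontriv ρ)
    (hcard : Nat.card V ≤ Nat.card (fixX ρ) ^ 2) (v : V) :
    ∃ a ∈ fixX ρ, ∃ m ∈ fixY ρ, v = a * m := by
  have hinf := inf_eq_bot87 ρ hirr hnt
  have h1 : (1 : F) ≠ 0 := one_ne_zero
  have hle : Nat.card (fixX ρ) ≤ Nat.card (fixY ρ) := by
    apply Nat.card_le_card_of_injective
      (fun a : fixX ρ => (⟨ρ (nn 1) a, nn_map_fixX h1 a.2⟩ : fixY ρ))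
    intro a b hab
    have h2 : ρ (nn 1) (a : V) = ρ (nn 1) (b : V) := congrArg Subtype.val hab
    exact Subtype.ext ((ρ (nn 1)).injective h2)
  have hinj : Function.Injective (fun x : fixX ρ × fixY ρ => (x.1 : V) * (x.2 : V)) := by
    rintro ⟨a, b⟩ ⟨a', b'⟩ hab
    have hab' : (a : V) * b = a' * b' := hab
    have e : (a' : V)⁻¹ * a = b' * (b : V)⁻¹ := by
      calc (a' : V)⁻¹ * a = (a' : V)⁻¹ * (a * b) * (b : V)⁻¹ := by group
        _ = (a' : V)⁻¹ * (a' * b') * (b : V)⁻¹ := by rw [hab']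
        _ = b' * (b : V)⁻¹ := by group
    have hmem : (a' : V)⁻¹ * a ∈ fixX ρ ⊓ fixY ρ :=
      Subgroup.mem_inf.mpr ⟨(fixX ρ).mul_mem ((fixX ρ).inv_mem a'.2) a.2, by
        rw [e]
        exact (fixY ρ).mul_mem b'.2 ((fixY ρ).inv_mem b.2)⟩
    rw [hinf, Subgroup.mem_bot] at hmem
    have h2 : (b' : V) * (b : V)⁻¹ = 1 := by
      rw [← e]
      exact hmem
    have ha : a = a' := Subtype.ext (inv_mul_eq_one.mp hmem).symm
    have hb : b = b' := Subtype.ext (mul_inv_eq_one.mp h2).symm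
    rw [ha, hb]
  have hbij := hinj.bijective_of_nat_card_le (by
    rw [Nat.card_prod]
    calc Nat.card V ≤ Nat.card (fixX ρ) ^ 2 := hcard
      _ = Nat.card (fixX ρ) * Nat.card (fixX ρ) := sq _
      _ ≤ Nat.card (fixX ρ) * Nat.card (fixY ρ) := Nat.mul_le_mul_left _ hle)
  obtain ⟨⟨a, m⟩, ham⟩ := hbij.2 v
  exact ⟨a, a.2, m, m.2, ham.symm⟩

/-- The part of `C_V(U⁻)` on which `U⁺` acts quadratically. -/
def layY : Subgroup V where
  carrier := {m | m ∈ fixY ρ ∧ ∀ s, ρ (xe s) m * m⁻¹ ∈ fixX ρ}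
  mul_mem' := by
    rintro a b ⟨ha, ha'⟩ ⟨hb, hb'⟩
    refine ⟨mul_mem ha hb, fun s => ?_⟩
    have e : ρ (xe s) (a * b) * (a * b)⁻¹ = (ρ (xe s) a * a⁻¹) * (ρ (xe s) b * b⁻¹) := by
      rw [map_mul, mul_inv, mul_mul_mul_comm]
    rw [e]
    exact mul_mem (ha' s) (hb' s)
  one_mem' := ⟨one_mem _, fun s => by
    rw [map_one, inv_one, mul_one]
    exact one_mem _⟩
  inv_mem' := by
    rintro a ⟨ha, ha'⟩
    refine ⟨inv_mem ha, fun s => ?_⟩
    have e : ρ (xe s) a⁻¹ * a⁻¹⁻¹ = (ρ (xe s) a * a⁻¹)⁻¹ := by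
      rw [map_inv, mul_inv]
    rw [e]
    exact inv_mem (ha' s)

theorem mem_layY {m : V} :
    m ∈ layY ρ ↔ m ∈ fixY ρ ∧ ∀ s, ρ (xe s) m * m⁻¹ ∈ fixX ρ := Iff.rfl

theorem dd_fixX87 {c : F} (hc : c ≠ 0) {v : V} (hv : v ∈ fixX ρ) : ρ (dd c) v ∈ fixX ρ := by
  intro s
  rw [← rho_mul, xe_mul_dd hc, rho_mul, hv]

theorem dd_fixY87 {c : F} (hc : c ≠ 0) {v : V} (hv : v ∈ fixY ρ) : ρ (dd c) v ∈ fixY ρ := by
  intro s
  rw [← rho_mul, ye_mul_dd hc, rho_mul, hv]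

theorem dd_layY87 {c : F} (hc : c ≠ 0) {m : V} (hm : m ∈ layY ρ) : ρ (dd c) m ∈ layY ρ := by
  refine ⟨dd_fixY87 ρ hc hm.1, fun s => ?_⟩
  have e : ρ (xe s) (ρ (dd c) m) * (ρ (dd c) m)⁻¹ = ρ (dd c) (ρ (xe (s / c ^ 2)) m * m⁻¹) := by
    rw [← rho_mul, xe_mul_dd hc, rho_mul, map_mul, map_inv]
  rw [e]
  exact dd_fixX87 ρ hc (hm.2 _)

theorem orbit_mem87 {m : V} (hm : m ∈ layY ρ) (g : Matrix.SpecialLinearGroup (Fin 2) F) :
    ρ g m ∈ fixX ρ ⊔ layY ρ := by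
  rcases exists_bruhat g with ⟨a, c, b, hc, rfl⟩ | ⟨c, b, hc, rfl⟩
  · rw [rho_mul, rho_mul, hm.1 b]
    have hm' := dd_layY87 ρ hc hm
    have e : ρ (xe a) (ρ (dd c) m) =
        (ρ (xe a) (ρ (dd c) m) * (ρ (dd c) m)⁻¹) * ρ (dd c) m := by
      group
    rw [e]
    exact Subgroup.mul_mem_sup (hm'.2 a) hm'
  · rw [rho_mul, hm.1 b]
    exact (le_sup_left : fixX ρ ≤ fixX ρ ⊔ layY ρ) (nn_map_fixY hc hm.1)

theorem sup_eq_top87 (hirr : Irr ρ) {m : V} (hm : m ∈ layY ρ) (hm1 : m ≠ 1) :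
    fixX ρ ⊔ layY ρ = ⊤ := by
  obtain ⟨W, hWdef⟩ : ∃ W : Subgroup V,
      W = Subgroup.closure (Set.range fun g : Matrix.SpecialLinearGroup (Fin 2) F => ρ g m) :=
    ⟨_, rfl⟩
  have hW : ∀ (g : Matrix.SpecialLinearGroup (Fin 2) F), ∀ w ∈ W, ρ g w ∈ W := by
    intro g w hw
    rw [hWdef] at hw ⊢
    induction hw using Subgroup.closure_induction with
    | mem x hx =>
      obtain ⟨h, rfl⟩ := hx
      rw [← rho_mul]
      exact Subgroup.subset_closure ⟨g * h, rfl⟩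
    | one =>
      rw [map_one]
      exact one_mem _
    | mul x y _ _ hx hy =>
      rw [map_mul]
      exact mul_mem hx hy
    | inv x _ hx =>
      rw [map_inv]
      exact inv_mem hx
  have hmW : m ∈ W := by
    rw [hWdef]
    refine Subgroup.subset_closure ⟨1, ?_⟩
    show ρ 1 m = m
    rw [map_one]
    rfl
  rcases hirr W hW with h | h
  · exfalso
    apply hm1
    rw [h, Subgroup.mem_bot] at hmW
    exact hmW
  · rw [eq_top_iff, ← h, hWdef, Subgroup.closure_le]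
    rintro _ ⟨g, rfl⟩
    exact orbit_mem87 ρ hm g

end

/-- Package (M3b) of S3009. -/
theorem quadOfCard (h : SecondLayer.{u, v}) : QuadOfCard.{u, v} := by
  intro F _ _ p _ _ V _ _ ρ hV hirr hnt hcard
  have hinf := inf_eq_bot87 ρ hirr hnt
  by_cases htop : fixX ρ = ⊤
  · intro t v
    have hv : v ∈ fixX ρ := by
      rw [htop]
      exact Subgroup.mem_top v
    rw [hv t, mul_inv_cancel]
    exact one_mem _
  · obtain ⟨v0, hv0, hv0'⟩ := h ρ hV htop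
    obtain ⟨a, ha, m, hm, rfl⟩ := exists_decomp87 ρ hirr hnt hcard v0
    have hm1 : m ≠ 1 := by
      rintro rfl
      apply hv0
      rw [mul_one]
      exact ha
    have hml : m ∈ layY ρ := by
      refine ⟨hm, fun s => ?_⟩
      have e : ρ (xe s) (a * m) * (a * m)⁻¹ = ρ (xe s) m * m⁻¹ := by
        rw [map_mul, ha s, mul_inv, mul_mul_mul_comm, mul_inv_cancel, one_mul]
      rw [← e]
      exact hv0' s
    have htop' := sup_eq_top87 ρ hirr hml hm1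
    have hfY : fixY ρ ≤ layY ρ := by
      intro m2 hm2
      have h2 : m2 ∈ fixX ρ ⊔ layY ρ := by
        rw [htop']
        exact Subgroup.mem_top _
      obtain ⟨a', ha', m', hm', rfl⟩ := Subgroup.mem_sup.mp h2
      have ha1 : a' ∈ fixX ρ ⊓ fixY ρ := Subgroup.mem_inf.mpr ⟨ha', by
        have h3 : a' = a' * m' * m'⁻¹ := by group
        rw [h3]
        exact (fixY ρ).mul_mem hm2 ((fixY ρ).inv_mem hm'.1)⟩
      rw [hinf, Subgroup.mem_bot] at ha1
      rw [ha1, one_mul]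
      exact hm'
    intro t v
    obtain ⟨a2, ha2, m2, hm2, rfl⟩ := exists_decomp87 ρ hirr hnt hcard v
    have e : ρ (xe t) (a2 * m2) * (a2 * m2)⁻¹ = ρ (xe t) m2 * m2⁻¹ := by
      rw [map_mul, ha2 t, mul_inv, mul_mul_mul_comm, mul_inv_cancel, one_mul]
    rw [e]
    exact (hfY hm2).2 t

end Cfsg.Agent.Lib.Helper87.SL2Nat
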